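import Groth.Agent.Etdl.H2.IfaceA
import Groth.Agent.Etdl.H2.DualProper

/-!
# (A1) and (A2) of route C
-/

set_option autoImplicit false
universe u

open CategoryTheory AlgebraicGeometry

namespace Groth.Agent.Etdl.H2.StmtA

/-- **(A1)** of route C. -/
theorem stmtA1 : H440.Iface.StmtA1.{u} := by
  intro k _ _ Y W p _ w _ _ _ d hd _ n hn hnk E hE x hx _ O T o _ hT ho m s hs
  exact IfaceA.bijective_cl_of_dualTr p w E hE x hx o hT ho
    (DualProper.dualTr p w d hd n hnk) m s hs

/-- **(A2)** of route C. -/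
theorem stmtA2 : H440.Iface.StmtA2.{u} := by
  intro k _ _ Y W p _ w _ _ _ d hd _ n hn hnk E hE
  exact IfaceA.nonempty_equiv_of_dualTr w E hE (DualProper.dualTr p w d hd n hnk)

end Groth.Agent.Etdl.H2.StmtA
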